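import Mathlib
import Cfsg.Prelude.Def_Classical
import Cfsg.Prelude.Def_Transfer
import Cfsg.Agent.H300.SingerModel
import Cfsg.Agent.LieRecognition.PSUThreeSylow
import Cfsg.Agent.SylowL.SylowPSL
set_option linter.all false

/-!
# Binary quadratic forms over `GF(2^n)` and Sylow 2-subgroups of `L₃(2^n)` and `U₃(2^n)` (S3161)
-/

set_option autoImplicit false

namespace Cfsg.Agent.H300.SingerForm

open Polynomial Cfsg.Agent.H300.SingerModel

/-- the conclusion -/
def Concl (Q : Type*) [Group Q] (n : ℕ) : Prop :=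
    (∃ (F : Type) (_ : Field F) (_ : Fintype F), Fintype.card F = 4 ^ n ∧
        ∃ S : Sylow 2 (Cfsg.PSU 3 F (2 ^ n)), Nonempty (Q ≃* ↥(S : Subgroup (Cfsg.PSU 3 F (2 ^ n))))) ∨
      (∃ (F : Type) (_ : Field F) (_ : Fintype F), Fintype.card F = 2 ^ n ∧
        ∃ S : Sylow 2 (Matrix.ProjectiveSpecialLinearGroup (Fin 3) F), Nonempty (Q ≃* ↥(S : Subgroup (Matrix.ProjectiveSpecialLinearGroup (Fin 3) F))))

theorem concl_split {Q : Type*} [Group Q] {n : ℕ} (hn : n ≠ 0) 
    (h : Model Q (GaloisField 2 n × GaloisField 2 n) (GaloisField 2 n) (fun v => v.1 * v.2)) : Concl Q n := by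
  have : Fact (Nat.Prime 2) := ⟨Nat.prime_two⟩
  let _ : Fintype (GaloisField 2 n) := Fintype.ofFinite _
  obtain ⟨e⟩ := h.equiv (model_UT (GaloisField 2 n))
  refine Or.inr ⟨GaloisField 2 n, inferInstance, inferInstance, ?_, default, ?_⟩
  · rw [← Nat.card_eq_fintype_card, GaloisField.card 2 n hn]
  · obtain ⟨e'⟩ := Cfsg.Agent.SylowL.SylowPSL.sylow_equiv (m := 3) (F := GaloisField 2 n) 2 default
    exact ⟨e.trans e'.symm⟩

theorem exists_L {F : Type*} [Field F] [Finite F] 
    (V : Type*) [AddCommGroup V] (f : F × F →+ V) (hf : ∀ v, f v = 0 → v = 0) (hV : Nat.card V = Nat.card (F × F)) :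
    ∃ L : F × F ≃+ V, ∀ v, L v = f v := by
  have hinj : Function.Injective f := (injective_iff_map_eq_zero f).2 hf
  have hpos : 0 < Nat.card (F × F) := Nat.card_pos
  have : Finite V := Nat.finite_of_card_ne_zero (by omega)
  exact ⟨AddEquiv.ofBijective f (by
    refine ⟨hinj, ?_⟩
    exact ((Nat.bijective_iff_injective_and_card f).2 ⟨hinj, hV.symm⟩).2), fun v => rfl⟩

theorem two_zero {F : Type*} [Field F] [CharP F 2] (x : F) : x + x = 0 := CharTwo.add_self_eq_zero x

theorem concl {Q : Type*} [Group Q] {n : ℕ} (hn : 2 ≤ n) {a b : GaloisField 2 n} (hb : b ≠ 0)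
    (h : Model Q (GaloisField 2 n × GaloisField 2 n) (GaloisField 2 n)
      (fun v => a * v.1 ^ 2 + a * v.2 ^ 2 + b * (v.1 * v.2))) : Concl Q n := by
  classical
  have : Fact (Nat.Prime 2) := ⟨Nat.prime_two⟩
  have hn0 : n ≠ 0 := by omega
  let F := GaloisField 2 n
  have hF : Nat.card F = 2 ^ n := GaloisField.card 2 n hn0
  by_cases ha : a = 0
  · apply concl_split hn0
    refine h.transfer (AddEquiv.refl _) (AddAut.mulLeft (Units.mk0 b hb)⁻¹) ?_
    intro v
    change ((Units.mk0 b hb)⁻¹ : Fˣ) * (a * v.1 ^ 2 + a * v.2 ^ 2 + b * (v.1 * v.2)) = v.1 * v.2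
    rw [ha, Units.val_inv_eq_inv_val, Units.val_mk0]
    field_simp
    ring
  obtain ⟨c, hc, hc0⟩ : ∃ c : F, b = a * c ∧ c ≠ 0 := 
    ⟨b / a, by field_simp, div_ne_zero hb ha⟩
  by_cases hr : ∃ r : F, r ^ 2 + c * r + 1 = 0
  · obtain ⟨r, hr⟩ := hr
    apply concl_split hn0
    let f : F × F →+ F × F :=
      { toFun := fun v => (v.1 + r * v.2, v.1 + (r + c) * v.2)
        map_zero' := by simp
        map_add' := by
          intro v w
          ext
          · simp only [Prod.fst_add, Prod.snd_add]; ring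
          · simp only [Prod.fst_add, Prod.snd_add]; ring }
    obtain ⟨L, hL⟩ := exists_L (F × F) f (by
      intro v hv
      have h1 : v.1 + r * v.2 = 0 := congrArg Prod.fst hv
      have h2 : v.1 + (r + c) * v.2 = 0 := congrArg Prod.snd hv
      have h3 : c * v.2 = 0 := by linear_combination h2 - h1
      have h4 : v.2 = 0 := (mul_eq_zero.1 h3).resolve_left hc0
      rw [h4, mul_zero, add_zero] at h1
      exact Prod.ext h1 h4) rfl
    refine h.transfer L (AddAut.mulLeft (Units.mk0 a ha)⁻¹) ?_
    intro v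
    change ((Units.mk0 a ha)⁻¹ : Fˣ) * (a * v.1 ^ 2 + a * v.2 ^ 2 + b * (v.1 * v.2)) = (L v).1 * (L v).2
    rw [hL]
    change _ = (v.1 + r * v.2) * (v.1 + (r + c) * v.2)
    rw [Units.val_inv_eq_inv_val, Units.val_mk0, inv_mul_eq_iff_eq_mul₀ ha, hc]
    linear_combination (- a * v.2 ^ 2) * hr - (two_zero (a * v.1 * v.2 * r)) + two_zero (a * v.2 ^ 2)
  · push Not at hr
    let p : F[X] := X ^ 2 + C c * X + 1
    have hpd : p.natDegree = 2 := by
      simp only [p]
      compute_degree!
    have hpm : p.Monic := by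
      simp only [p]
      monicity!
    have hpi : Irreducible p := by
      rw [hpm.irreducible_iff_roots_eq_zero_of_degree_le_three (by omega) (by omega)]
      rw [Multiset.eq_zero_iff_forall_notMem]
      intro r hr'
      rw [mem_roots hpm.ne_zero, IsRoot.def] at hr'
      apply hr r
      simpa [p] using hr'
    have : Fact (Irreducible p) := ⟨hpi⟩
    let K := AdjoinRoot p
    let ι : F →+* K := AdjoinRoot.of p
    let r : K := AdjoinRoot.root p
    have hfr : Module.finrank F K = 2 := (AdjoinRoot.powerBasis hpm.ne_zero).finrank.trans hpd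
    have : Module.Finite F K := Module.finite_of_finrank_pos (by omega)
    have hKc : Nat.card K = (2 ^ n) ^ 2 := by
      rw [Module.natCard_eq_pow_finrank (K := F) (V := K), hfr, hF]
    have : Finite K := Nat.finite_of_card_ne_zero (by rw [hKc]; positivity)
    let _ : Fintype K := Fintype.ofFinite K
    have hroot : r ^ 2 + ι c * r + 1 = 0 := by
      have h1 : (p.map ι).eval r = 0 := by
        have := AdjoinRoot.isRoot_root p
        exact this
      simpa [p] using h1
    obtain ⟨h2, σ, hσ, hs, -, hS⟩ := Cfsg.Agent.LieRecognition.PSUThreeSylow.exists_heis_equiv K (n := n) (by omega) hKc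
    have hq : 1 < 2 ^ n := Nat.one_lt_two_pow hn0
    have hσι : ∀ x : F, σ (ι x) = ι x := by
      intro x
      rw [hs, ← map_pow]
      congr 1
      let _ : Fintype F := Fintype.ofFinite F
      have := FiniteField.pow_card x
      rwa [← Nat.card_eq_fintype_card, hF] at this
    have hιi : Function.Injective ι := ι.injective
    obtain ⟨hfix, -⟩ := Cfsg.Agent.LieRecognition.HermHeis.card_fixed (σ := σ) hq hs hKc
    -- fixed elements lie in `F`
    have hfixr : ∀ x : K, σ x = x → ∃ y : F, ι y = x := by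
      have h3 : Function.Bijective (fun y : F => (⟨ι y, hσι y⟩ : {x : K // σ x = x})) := by
        rw [Nat.bijective_iff_injective_and_card]
        refine ⟨fun x y hxy => hιi (congrArg Subtype.val hxy), ?_⟩
        rw [hfix, hF]
      intro x hx
      obtain ⟨y, hy⟩ := h3.2 ⟨x, hx⟩
      exact ⟨y, congrArg Subtype.val hy⟩
    have hrF : ∀ y : F, ι y ≠ r := by
      intro y hy
      apply hr y
      apply hιi
      rw [map_add, map_add, map_pow, map_mul, map_one, hy, map_zero]
      exact hroot
    have hσr : σ r = r + ι c := by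
      have h4 : (σ r) ^ 2 + ι c * σ r + 1 = 0 := by
        have := congrArg σ hroot
        rw [map_add, map_add, map_pow, map_mul, map_one, hσι, map_zero] at this
        exact this
      have h5 : (σ r - r) * (σ r - (r + ι c)) = 0 := by
        linear_combination h4 - hroot - two_zero (r * σ r) + two_zero (r ^ 2) - two_zero (ι c * σ r) + two_zero (ι c * r)
      rcases mul_eq_zero.1 h5 with h6 | h6
      · obtain ⟨y, hy⟩ := hfixr r (sub_eq_zero.1 h6)
        exact absurd hy (hrF y)
      · exact sub_eq_zero.1 h6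
    let f : F × F →+ K :=
      { toFun := fun v => ι v.1 + r * ι v.2
        map_zero' := by simp
        map_add' := by
          intro v w
          simp only [Prod.fst_add, Prod.snd_add, map_add]; ring }
    obtain ⟨L, hL⟩ := exists_L K f (by
      intro v hv
      have h1 : ι v.1 + r * ι v.2 = 0 := hv
      have h4 : v.2 = 0 := by
        by_contra h5
        have h6 : ι v.2 ≠ 0 := (map_ne_zero ι).2 h5
        apply hrF (- v.1 / v.2)
        rw [map_div₀, map_neg, div_eq_iff h6]
        linear_combination - h1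
      rw [h4, map_zero, mul_zero, add_zero, map_eq_zero] at h1
      exact Prod.ext h1 h4) (by rw [hKc, Nat.card_prod, hF, pow_two])
    let g : F →+ (Cfsg.Agent.LieRecognition.HermHeis.tr σ).ker :=
      { toFun := fun x => ⟨ι x, (Cfsg.Agent.LieRecognition.HermHeis.mem_ker_tr _).2 (hσι x)⟩
        map_zero' := Subtype.ext (map_zero ι)
        map_add' := fun x y => Subtype.ext (map_add ι x y) }
    have hg : Function.Bijective g := by
      constructor
      · intro x y hxy
        exact hιi (congrArg Subtype.val hxy)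
      · intro x
        obtain ⟨y, hy⟩ := hfixr x ((Cfsg.Agent.LieRecognition.HermHeis.mem_ker_tr _).1 x.2)
        exact ⟨y, Subtype.ext hy⟩
    obtain ⟨e⟩ := (h.transfer L ((AddAut.mulLeft (Units.mk0 a ha)⁻¹ : F ≃+ F).trans (AddEquiv.ofBijective g hg))
      (f' := nrm σ) (by
        intro v
        apply Subtype.ext
        change ι (((Units.mk0 a ha)⁻¹ : Fˣ) * (a * v.1 ^ 2 + a * v.2 ^ 2 + b * (v.1 * v.2))) = L v * σ (L v)
        have e1 : (((Units.mk0 a ha)⁻¹ : Fˣ) : F) * (a * v.1 ^ 2 + a * v.2 ^ 2 + b * (v.1 * v.2)) =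
            v.1 ^ 2 + v.2 ^ 2 + c * (v.1 * v.2) := by
          rw [Units.val_inv_eq_inv_val, Units.val_mk0, inv_mul_eq_iff_eq_mul₀ ha, hc]
          ring
        rw [e1, hL]
        change _ = (ι v.1 + r * ι v.2) * σ (ι v.1 + r * ι v.2)
        rw [map_add σ, map_mul σ, hσι, hσι, hσr]
        simp only [map_add, map_mul, map_pow]
        linear_combination (- (ι v.2) ^ 2) * hroot - (two_zero (ι v.1 * ι v.2 * r)) + two_zero ((ι v.2) ^ 2))).equiv
      (model_Heis hq hs hKc)
    obtain ⟨e'⟩ := hS default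
    refine Or.inl ⟨K, inferInstance, inferInstance, ?_, default, ⟨e.trans e'⟩⟩
    rw [← Nat.card_eq_fintype_card, hKc, ← pow_mul, mul_comm, pow_mul]
    norm_num

end Cfsg.Agent.H300.SingerForm
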