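import Mathlib
import Cfsg.Agent.H300.Singer
import Cfsg.Agent.LieRecognition.SuzukiField
import Cfsg.Agent.LieRecognition.HigmanCentral
set_option linter.all false

/-!
# 2-groups with an involutory automorphism whose fixed points are permuted regularly (S3161), part 2

* `exists_coord`: coordinates on `C = C_Q(α)`;
* `dichotomy`, `alternating`: commutators of invariant subgroups mapping onto `C`;
* `structure_thm`: a non-abelian `Q` has order `q³`, squares and commutators in `C`.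
-/

set_option autoImplicit false

namespace Cfsg.Agent.H300.Singer

open Subgroup Cfsg.Agent.LieRecognition.SuzukiField
open scoped commutatorElement

variable {Q : Type*} [Group Q]

namespace Hyp

variable {q : ℕ} {α ρ : MulAut Q} (h : Hyp q α ρ)
include h

/-- coordinates on the fixed points -/
theorem exists_coord [Finite Q] {n : ℕ} (hq : q = 2 ^ n) : ∃ (e : Q → GaloisField 2 n) (t : GaloisField 2 n),
    (∀ x ∈ fix α, ∀ y ∈ fix α, e (x * y) = e x + e y) ∧ (∀ x ∈ fix α, e x = 0 → x = 1) ∧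
      (∀ u, ∃ x ∈ fix α, e x = u) ∧ (∀ x ∈ fix α, e (ρ x) = t * e x) ∧ Primitive t ∧ t ≠ 1 := by
  classical
  have hn : n ≠ 0 := by
    rintro rfl
    have := h.four
    rw [hq] at this
    norm_num at this
  have hcen := h.fix_le_center
  let _ : CommGroup (fix α) := { (inferInstance : Group (fix α)) with
    mul_comm := fun a b => Subtype.ext (mem_center_iff.1 (hcen b.2) a) }
  let r : fix α →* fix α :=
    { toFun := fun x => ⟨ρ x, h.rho_mem x.2⟩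
      map_one' := Subtype.ext (map_one ρ)
      map_mul' := fun x y => Subtype.ext (map_mul ρ _ _) }
  let T : AddMonoid.End (Additive (fix α)) := MonoidHom.toAdditive r
  have hTk : ∀ (k : ℕ) (x : fix α), (((T ^ k) (Additive.ofMul x)).toMul : Q) = (ρ ^ k) (x : Q) := by
    intro k
    induction k with
    | zero => intro x; rfl
    | succ k ih =>
      intro x
      rw [pow_succ', pow_succ', MulAut.mul_apply, ← ih]
      rfl
  obtain ⟨x₀, hx₀, hx1⟩ := h.exists_ne_one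
  obtain ⟨m, hm, hm1⟩ := h.odd
  obtain ⟨e, t, -, het, ht0, htp⟩ := Cfsg.Agent.PermutationGroups.PrimePlusOne.Semiaffine.exists_coord
    (V := Additive (fix α)) n hn (by
      change Nat.card (fix α) = 2 ^ n
      rw [h.card_fix, hq]) T (Additive.ofMul ⟨x₀, hx₀⟩)
    (fun hcon => hx1 (congrArg Subtype.val (Additive.ofMul.injective hcon)))
    (fun v hv => by
      obtain ⟨k, hk⟩ := h.trans x₀ (v.toMul : Q) hx₀ v.toMul.2 hx1
        (fun hcon => hv (Additive.toMul.injective (Subtype.ext hcon)))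
      refine ⟨k, ?_⟩
      apply Additive.toMul.injective
      apply Subtype.ext
      rw [hTk, hk])
    m hm.pos (by
      refine AddMonoidHom.ext fun v => ?_
      apply Additive.toMul.injective
      apply Subtype.ext
      change (((T ^ m) (Additive.ofMul v.toMul)).toMul : Q) = (v.toMul : Q)
      rw [hTk, hm1]
      rfl)
  have ht1 : t ≠ 1 := by
    rintro rfl
    have h1 : ∀ x : GaloisField 2 n, x ≠ 0 → x = 1 := by
      intro x hx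
      obtain ⟨i, hi⟩ := htp x hx
      rw [← hi, one_pow]
    have h2 : Nat.card (GaloisField 2 n) ≤ 2 := by
      have hs : (Set.univ : Set (GaloisField 2 n)) ⊆ {0, 1} := by
        intro x _
        by_cases hx : x = 0
        · exact Or.inl hx
        · exact Or.inr (h1 x hx)
      rw [← Set.ncard_univ]
      exact (Set.ncard_le_ncard hs (Set.toFinite _)).trans
        ((Set.ncard_insert_le 0 {1}).trans (by rw [Set.ncard_singleton]))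
    rw [GaloisField.card 2 n hn] at h2
    have := h.four
    omega
  refine ⟨fun x => if hx : x ∈ fix α then e (Additive.ofMul ⟨x, hx⟩) else 0, t, ?_, ?_, ?_, ?_, ⟨ht0, htp⟩, ht1⟩
  · intro x hx y hy
    simp only [dif_pos hx, dif_pos hy, dif_pos ((fix α).mul_mem hx hy)]
    rw [← map_add]
    rfl
  · intro x hx he
    simp only [dif_pos hx] at he
    have h1 := (EmbeddingLike.map_eq_zero_iff (f := e)).1 he
    exact congrArg Subtype.val (Additive.ofMul.injective h1)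
  · intro u
    refine ⟨((e.symm u).toMul : Q), (e.symm u).toMul.2, ?_⟩
    simp only [dif_pos (e.symm u).toMul.2]
    exact e.apply_symm_apply u
  · intro x hx
    simp only [dif_pos hx, dif_pos (h.rho_mem hx)]
    exact het (Additive.ofMul ⟨x, hx⟩)

end Hyp

/-- coordinates on the fixed points -/
structure Coord (α ρ : MulAut Q) {n : ℕ} (e : Q → GaloisField 2 n) (t : GaloisField 2 n) : Prop where
  add : ∀ x ∈ fix α, ∀ y ∈ fix α, e (x * y) = e x + e y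
  inj : ∀ x ∈ fix α, e x = 0 → x = 1
  surj : ∀ u, ∃ x ∈ fix α, e x = u
  rho : ∀ x ∈ fix α, e (ρ x) = t * e x
  prim : Primitive t
  ne : t ≠ 1

/-- the data of two invariant subgroups mapping onto the fixed points -/
structure Pair (α ρ : MulAut Q) (H₁ H₂ : Subgroup Q) (p₁ p₂ : Q → Q) : Prop where
  i₁ : ∀ x ∈ H₁, ρ x ∈ H₁
  i₂ : ∀ x ∈ H₂, ρ x ∈ H₂
  m₁ : ∀ x ∈ H₁, p₁ x ∈ fix α
  m₂ : ∀ x ∈ H₂, p₂ x ∈ fix α
  a₁ : ∀ x ∈ H₁, ∀ y ∈ H₁, p₁ (x * y) = p₁ x * p₁ y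
  a₂ : ∀ x ∈ H₂, ∀ y ∈ H₂, p₂ (x * y) = p₂ x * p₂ y
  r₁ : ∀ x ∈ H₁, p₁ (ρ x) = ρ (p₁ x)
  r₂ : ∀ x ∈ H₂, p₂ (ρ x) = ρ (p₂ x)
  s₁ : ∀ c ∈ fix α, ∃ x ∈ H₁, p₁ x = c
  s₂ : ∀ c ∈ fix α, ∃ x ∈ H₂, p₂ x = c
  k₁ : ∀ x ∈ H₁, p₁ x = 1 → ∀ y ∈ H₂, ⁅x, y⁆ = 1
  k₂ : ∀ y ∈ H₂, p₂ y = 1 → ∀ x ∈ H₁, ⁅x, y⁆ = 1
  c : ∀ x ∈ H₁, ∀ y ∈ H₂, ⁅x, y⁆ ∈ fix α

theorem comm_mul_left' {x y z : Q} (hc : ⁅y, z⁆ ∈ center Q) : ⁅x * y, z⁆ = ⁅x, z⁆ * ⁅y, z⁆ := by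
  have h1 := mem_center_iff.1 hc
  calc ⁅x * y, z⁆ = x * ⁅y, z⁆ * x⁻¹ * ⁅x, z⁆ := by simp only [commutatorElement_def]; group
    _ = ⁅y, z⁆ * ⁅x, z⁆ := by rw [h1 x]; group
    _ = ⁅x, z⁆ * ⁅y, z⁆ := (h1 _).symm

theorem comm_mul_right' {x y z : Q} (hc : ⁅x, z⁆ ∈ center Q) : ⁅x, y * z⁆ = ⁅x, y⁆ * ⁅x, z⁆ := by
  have h1 := mem_center_iff.1 hc
  calc ⁅x, y * z⁆ = ⁅x, y⁆ * (y * ⁅x, z⁆ * y⁻¹) := by simp only [commutatorElement_def]; group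
    _ = ⁅x, y⁆ * ⁅x, z⁆ := by rw [h1 y]; group

theorem rho_comm (ρ : MulAut Q) (x y : Q) : ρ ⁅x, y⁆ = ⁅ρ x, ρ y⁆ := map_commutatorElement ρ x y

namespace Pair

variable {q : ℕ} {α ρ : MulAut Q} {H₁ H₂ : Subgroup Q} {p₁ p₂ : Q → Q}

/-- the bilinear map of a pair -/
theorem exists_bilin_of [Finite Q] (P : Pair α ρ H₁ H₂ p₁ p₂) (h : Hyp q α ρ) {n : ℕ}
    {e : Q → GaloisField 2 n} {t : GaloisField 2 n} (E : Coord α ρ e t) :
    ∃ (b : GaloisField 2 n →+ GaloisField 2 n →+ GaloisField 2 n),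
      (∀ u v, b (t * u) (t * v) = t * b u v) ∧ (∀ x ∈ H₁, ∀ y ∈ H₂, e ⁅x, y⁆ = b (e (p₁ x)) (e (p₂ y))) := by
  obtain ⟨ea, ei, es, er, ht, ht1⟩ := E
  have hcen := h.fix_le_center
  have e1 : e 1 = 0 := by
    have := ea 1 (one_mem _) 1 (one_mem _)
    rw [mul_one] at this
    exact left_eq_add.1 this
  have einj : ∀ x ∈ fix α, ∀ y ∈ fix α, e x = e y → x = y := by
    intro x hx y hy hxy
    have h1 : e (x * y⁻¹) = 0 := by
      have h2 := ea (x * y⁻¹) ((fix α).mul_mem hx ((fix α).inv_mem hy)) y hy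
      rw [inv_mul_cancel_right, hxy] at h2
      exact (right_eq_add.1 h2)
    exact mul_inv_eq_one.1 (ei _ ((fix α).mul_mem hx ((fix α).inv_mem hy)) h1)
  choose c hc hce using es
  choose s₁ hs₁ hs₁' using fun u => P.s₁ (c u) (hc u)
  choose s₂ hs₂ hs₂' using fun u => P.s₂ (c u) (hc u)
  have p1one : p₁ 1 = 1 := by
    have := P.a₁ 1 (one_mem _) 1 (one_mem _)
    rw [mul_one] at this
    exact left_eq_mul.1 this
  have p2one : p₂ 1 = 1 := by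
    have := P.a₂ 1 (one_mem _) 1 (one_mem _)
    rw [mul_one] at this
    exact left_eq_mul.1 this
  have p1inv : ∀ x ∈ H₁, p₁ x⁻¹ = (p₁ x)⁻¹ := by
    intro x hx
    have := P.a₁ x⁻¹ (H₁.inv_mem hx) x hx
    rw [inv_mul_cancel, p1one] at this
    exact (eq_inv_of_mul_eq_one_left this.symm)
  have p2inv : ∀ x ∈ H₂, p₂ x⁻¹ = (p₂ x)⁻¹ := by
    intro x hx
    have := P.a₂ x⁻¹ (H₂.inv_mem hx) x hx
    rw [inv_mul_cancel, p2one] at this
    exact (eq_inv_of_mul_eq_one_left this.symm)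
  -- independence of the representatives
  have w1 : ∀ x ∈ H₁, ∀ x' ∈ H₁, p₁ x = p₁ x' → ∀ y ∈ H₂, ⁅x, y⁆ = ⁅x', y⁆ := by
    intro x hx x' hx' hxx y hy
    have h1 : ⁅x'⁻¹ * x, y⁆ = 1 := by
      apply P.k₁ _ (H₁.mul_mem (H₁.inv_mem hx') hx) _ y hy
      rw [P.a₁ _ (H₁.inv_mem hx') _ hx, p1inv x' hx', hxx, inv_mul_cancel]
    have h2 : ⁅x' * (x'⁻¹ * x), y⁆ = ⁅x', y⁆ * ⁅x'⁻¹ * x, y⁆ :=
      comm_mul_left' (by rw [h1]; exact one_mem _)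
    rw [mul_inv_cancel_left, h1, mul_one] at h2
    exact h2
  have w2 : ∀ x ∈ H₁, ∀ y ∈ H₂, ∀ y' ∈ H₂, p₂ y = p₂ y' → ⁅x, y⁆ = ⁅x, y'⁆ := by
    intro x hx y hy y' hy' hyy
    have h1 : ⁅x, y'⁻¹ * y⁆ = 1 := by
      apply P.k₂ _ (H₂.mul_mem (H₂.inv_mem hy') hy) _ x hx
      rw [P.a₂ _ (H₂.inv_mem hy') _ hy, p2inv y' hy', hyy, inv_mul_cancel]
    have h2 : ⁅x, y' * (y'⁻¹ * y)⁆ = ⁅x, y'⁆ * ⁅x, y'⁻¹ * y⁆ :=
      comm_mul_right' (by rw [h1]; exact one_mem _)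
    rw [mul_inv_cancel_left, h1, mul_one] at h2
    exact h2
  have key : ∀ x ∈ H₁, ∀ y ∈ H₂, ⁅x, y⁆ = ⁅s₁ (e (p₁ x)), s₂ (e (p₂ y))⁆ := by
    intro x hx y hy
    rw [w1 x hx (s₁ (e (p₁ x))) (hs₁ _) ?_ y hy, w2 _ (hs₁ _) y hy (s₂ (e (p₂ y))) (hs₂ _) ?_]
    · rw [hs₂']
      exact einj _ (P.m₂ y hy) _ (hc _) (hce _).symm
    · rw [hs₁']
      exact einj _ (P.m₁ x hx) _ (hc _) (hce _).symm
  have cmul : ∀ u v, c (u + v) = c u * c v := by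
    intro u v
    apply einj _ (hc _) _ ((fix α).mul_mem (hc u) (hc v))
    rw [ea _ (hc u) _ (hc v), hce, hce, hce]
  have crho : ∀ u, c (t * u) = ρ (c u) := by
    intro u
    apply einj _ (hc _) _ (h.rho_mem (hc u))
    rw [er _ (hc u), hce, hce]
  have badd1 : ∀ u v w, e ⁅s₁ (u + v), s₂ w⁆ = e ⁅s₁ u, s₂ w⁆ + e ⁅s₁ v, s₂ w⁆ := by
    intro u v w
    rw [← ea _ (P.c _ (hs₁ _) _ (hs₂ _)) _ (P.c _ (hs₁ _) _ (hs₂ _)),
      ← comm_mul_left' (hcen (P.c _ (hs₁ _) _ (hs₂ _)))]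
    congr 1
    apply w1 _ (hs₁ _) _ (H₁.mul_mem (hs₁ _) (hs₁ _)) _ _ (hs₂ _)
    rw [P.a₁ _ (hs₁ _) _ (hs₁ _), hs₁', hs₁', hs₁', cmul]
  have badd2 : ∀ u v w, e ⁅s₁ u, s₂ (v + w)⁆ = e ⁅s₁ u, s₂ v⁆ + e ⁅s₁ u, s₂ w⁆ := by
    intro u v w
    rw [← ea _ (P.c _ (hs₁ _) _ (hs₂ _)) _ (P.c _ (hs₁ _) _ (hs₂ _)),
      ← comm_mul_right' (hcen (P.c _ (hs₁ _) _ (hs₂ _)))]
    congr 1
    apply w2 _ (hs₁ _) _ (hs₂ _) _ (H₂.mul_mem (hs₂ _) (hs₂ _))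
    rw [P.a₂ _ (hs₂ _) _ (hs₂ _), hs₂', hs₂', hs₂', cmul]
  have hz1 : ∀ w, e ⁅s₁ 0, s₂ w⁆ = 0 := by
    intro w
    have := badd1 0 0 w
    rw [add_zero] at this
    exact left_eq_add.1 this
  have hz2 : ∀ u, e ⁅s₁ u, s₂ 0⁆ = 0 := by
    intro u
    have := badd2 u 0 0
    rw [add_zero] at this
    exact left_eq_add.1 this
  let b : GaloisField 2 n →+ GaloisField 2 n →+ GaloisField 2 n :=
    { toFun := fun u =>
        { toFun := fun v => e ⁅s₁ u, s₂ v⁆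
          map_zero' := hz2 u
          map_add' := badd2 u }
      map_zero' := by ext w; exact hz1 w
      map_add' := fun u v => by ext w; exact badd1 u v w }
  have hbv : ∀ u v, b u v = e ⁅s₁ u, s₂ v⁆ := fun u v => rfl
  refine ⟨b, ?_, ?_⟩
  · intro u v
    rw [hbv, hbv, ← er _ (P.c _ (hs₁ _) _ (hs₂ _)), rho_comm]
    congr 1
    rw [w1 _ (hs₁ _) (ρ (s₁ u)) (P.i₁ _ (hs₁ _)) ?_ _ (hs₂ _),
      w2 _ (P.i₁ _ (hs₁ _)) _ (hs₂ _) (ρ (s₂ v)) (P.i₂ _ (hs₂ _)) ?_]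
    · rw [hs₂', crho, P.r₂ _ (hs₂ _), hs₂']
    · rw [hs₁', crho, P.r₁ _ (hs₁ _), hs₁']
  · intro x hx y hy
    rw [hbv, key x hx y hy]

/-- the bilinear map of a pair -/
theorem exists_bilin [Finite Q] (P : Pair α ρ H₁ H₂ p₁ p₂) (h : Hyp q α ρ) {n : ℕ} (hq : q = 2 ^ n) :
    ∃ (e : Q → GaloisField 2 n) (t : GaloisField 2 n) (b : GaloisField 2 n →+ GaloisField 2 n →+ GaloisField 2 n),
      (∀ x ∈ fix α, e x = 0 ↔ x = 1) ∧ (∀ u, ∃ x ∈ fix α, e x = u) ∧ Primitive t ∧ t ≠ 1 ∧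
      (∀ u v, b (t * u) (t * v) = t * b u v) ∧ (∀ x ∈ H₁, ∀ y ∈ H₂, e ⁅x, y⁆ = b (e (p₁ x)) (e (p₂ y))) := by
  obtain ⟨e, t, ea, ei, es, er, ht, ht1⟩ := h.exists_coord hq
  obtain ⟨b, hb, key⟩ := P.exists_bilin_of h ⟨ea, ei, es, er, ht, ht1⟩
  have e1 : e 1 = 0 := by
    have := ea 1 (one_mem _) 1 (one_mem _)
    rw [mul_one] at this
    exact left_eq_add.1 this
  exact ⟨e, t, b, fun x hx => ⟨ei x hx, fun hx1 => by rw [hx1, e1]⟩, es, ht, ht1, hb, key⟩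

/-- **dichotomy** -/
theorem dichotomy [Finite Q] (P : Pair α ρ H₁ H₂ p₁ p₂) (h : Hyp q α ρ) {n : ℕ} (hq : q = 2 ^ n) :
    (∀ x ∈ H₁, ∀ y ∈ H₂, ⁅x, y⁆ = 1) ∨ (∀ x ∈ H₁, ∀ y ∈ H₂, ⁅x, y⁆ = 1 → p₁ x = 1 ∨ p₂ y = 1) := by
  obtain ⟨e, t, b, e0, es, ht, ht1, hb, key⟩ := P.exists_bilin h hq
  by_cases hb0 : ∃ x y, b x y ≠ 0
  · right
    intro x hx y hy hxy
    by_contra hcon
    push Not at hcon
    have h1 := key x hx y hy
    rw [(e0 _ (P.c x hx y hy)).2 hxy] at h1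
    refine equivariant_biadditive_ne_zero ht ht ht1 b hb hb0 (e (p₁ x)) (e (p₂ y)) ?_ ?_ h1.symm
    · exact fun h2 => hcon.1 ((e0 _ (P.m₁ x hx)).1 h2)
    · exact fun h2 => hcon.2 ((e0 _ (P.m₂ y hy)).1 h2)
  · left
    push Not at hb0
    intro x hx y hy
    rw [← e0 _ (P.c x hx y hy), key x hx y hy, hb0]

/-- **alternating maps vanish** -/
theorem alternating [Finite Q] {H : Subgroup Q} {p : Q → Q} (P : Pair α ρ H H p p) (h : Hyp q α ρ) {n : ℕ}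
    (hq : q = 2 ^ n) : ∀ x ∈ H, ∀ y ∈ H, ⁅x, y⁆ = 1 := by
  obtain ⟨e, t, b, e0, es, ht, ht1, hb, key⟩ := P.exists_bilin h hq
  have halt : ∀ u, b u u = 0 := by
    intro u
    obtain ⟨c, hc, rfl⟩ := es u
    obtain ⟨x, hx, rfl⟩ := P.s₁ c hc
    rw [← key x hx x hx, commutatorElement_self]
    exact (e0 1 (one_mem _)).2 rfl
  intro x hx y hy
  rw [← e0 _ (P.c x hx y hy), key x hx y hy]
  exact equivariant_alternating_eq_zero ht ht1 b hb halt _ _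

end Pair

end Cfsg.Agent.H300.Singer
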