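import Mathlib
import Cfsg.Agent.H300.SingerTwo
set_option linter.all false

/-!
# 2-groups with an involutory automorphism whose fixed points are permuted regularly (S3161), part 3

`structure_thm`: a non-abelian `Q` has order `q³`, squares and commutators in `C = C_Q(α)`.
-/

set_option autoImplicit false

namespace Cfsg.Agent.H300.Singer

open Subgroup
open scoped commutatorElement

universe u

variable {Q : Type u} [Group Q]

theorem mem_fix_inv {α : MulAut Q} {x : Q} (hx : x ∈ fix α) : x⁻¹ ∈ fix α := (fix α).inv_mem hx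

namespace Hyp

variable {q : ℕ} {α ρ : MulAut Q} (h : Hyp q α ρ)
include h

theorem fix_normal [Finite Q] : (fix α).Normal := by
  refine ⟨fun x hx g => ?_⟩
  have := mem_center_iff.1 (h.fix_le_center hx) g
  rw [this, mul_inv_cancel_right]
  exact hx

omit h in
theorem alpha_mem_fix {x : Q} (hx : x ∈ fix α) : α x ∈ fix α := by
  rw [mem_fix.1 hx]; exact hx

theorem exists_quot [Finite Q] (hne : ∃ x, α x ≠ x) : ∃ (_ : (fix α).Normal) (α' ρ' : MulAut (Q ⧸ fix α)),
    Hyp q α' ρ' ∧ (∀ x : Q, α' (QuotientGroup.mk x) = QuotientGroup.mk (α x)) ∧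
      (∀ x : Q, ρ' (QuotientGroup.mk x) = QuotientGroup.mk (ρ x)) :=
  have hn := h.fix_normal
  ⟨hn, _, _, h.quot hn hne (map_eq_of_le α fun _ => alpha_mem_fix) (map_eq_of_le ρ fun _ => h.rho_mem),
    fun _ => rfl, fun _ => rfl⟩

/-- the second term -/
def dd [Finite Q] : Subgroup Q where
  carrier := {x | dis α x ∈ fix α}
  mul_mem' := by
    intro x y hx hy
    change dis α (x * y) ∈ fix α
    rw [h.dis_mul_of_center hx]
    exact (fix α).mul_mem hx hy
  one_mem' := by
    change dis α 1 ∈ fix α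
    rw [dis, map_one, inv_one, mul_one]
    exact (fix α).one_mem
  inv_mem' := by
    intro x hx
    change dis α x⁻¹ ∈ fix α
    have h1 := h.dis_mul_of_center (x := x) (y := x⁻¹) hx
    rw [mul_inv_cancel] at h1
    have h2 : dis α (1 : Q) = 1 := by rw [dis, map_one, inv_one, mul_one]
    rw [h2] at h1
    rw [eq_inv_of_mul_eq_one_right h1.symm]
    exact (fix α).inv_mem hx

theorem mem_dd [Finite Q] {x : Q} : x ∈ h.dd ↔ dis α x ∈ fix α := Iff.rfl

theorem fix_le_dd [Finite Q] : fix α ≤ h.dd := by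
  intro x hx
  rw [h.mem_dd, dis_eq_one.2 hx]
  exact (fix α).one_mem

theorem dis_alpha (x : Q) : dis α (α x) = (dis α x)⁻¹ := by
  rw [← h.apply_dis, dis, dis, map_mul, map_inv]

theorem dd_alpha [Finite Q] : ∀ x ∈ h.dd, α x ∈ h.dd := by
  intro x hx
  rw [h.mem_dd, h.dis_alpha]
  exact (fix α).inv_mem hx

theorem dis_rho (x : Q) : dis α (ρ x) = ρ (dis α x) := by
  have := h.dis_pow 1 x
  rwa [pow_one] at this

theorem dd_rho [Finite Q] : ∀ x ∈ h.dd, ρ x ∈ h.dd := by
  intro x hx
  rw [h.mem_dd, h.dis_rho]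
  exact h.rho_mem hx

theorem sq_mem_dd [Finite Q] {x : Q} (hx : x ∈ h.dd) : x * x ∈ fix α := h.mul_self_mem hx

theorem comm_mem_fix [Finite Q] {x y : Q} (hx : x ∈ h.dd) (hy : y ∈ h.dd) : ⁅x, y⁆ ∈ fix α := by
  have h1 := h.sq_mem_dd (h.dd.mul_mem hx hy)
  have h2 := h.sq_mem_dd hx
  have h3 := h.sq_mem_dd hy
  have hc := mem_center_iff.1 (h.fix_le_center ((fix α).inv_mem h2))
  have h4 : ⁅x, y⁆ = (x * y * (x * y)) * ((x * x)⁻¹ * (y * y)⁻¹) := by
    calc ⁅x, y⁆ = (x * y * (x * y)) * (y⁻¹ * (x * x)⁻¹) * y⁻¹ := by rw [commutatorElement_def]; group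
      _ = (x * y * (x * y)) * ((x * x)⁻¹ * y⁻¹) * y⁻¹ := by rw [hc y⁻¹]
      _ = _ := by group
  rw [h4]
  exact (fix α).mul_mem h1 ((fix α).mul_mem ((fix α).inv_mem h2) ((fix α).inv_mem h3))

theorem exists_dis [Finite Q] (hne : ∃ x, α x ≠ x) : ∃ x₀, dis α x₀ ∈ fix α ∧ dis α x₀ ≠ 1 := by
  obtain ⟨hn, α', ρ', h', hα', -⟩ := h.exists_quot hne
  obtain ⟨y, hy, hy1⟩ := h'.exists_ne_one
  obtain ⟨x, rfl⟩ := QuotientGroup.mk_surjective y
  refine ⟨x, ?_, ?_⟩
  · have h1 := mem_fix.1 hy
    rw [hα', eq_comm, QuotientGroup.eq] at h1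
    exact h1
  · intro h1
    exact hy1 ((QuotientGroup.eq_one_iff x).2 (dis_eq_one.1 h1))

theorem dd_surj [Finite Q] (hne : ∃ x, α x ≠ x) : ∀ c ∈ fix α, ∃ x ∈ h.dd, dis α x = c := by
  intro c hc
  by_cases hc1 : c = 1
  · exact ⟨1, h.dd.one_mem, by rw [hc1, dis, map_one, inv_one, mul_one]⟩
  · obtain ⟨x₀, hx₀, hx1⟩ := h.exists_dis hne
    obtain ⟨k, hk⟩ := h.trans _ c hx₀ hc hx1 hc1
    refine ⟨(ρ ^ k) x₀, pow_mem h.dd_rho k _ hx₀, ?_⟩
    rw [h.dis_pow, hk]

theorem dd_comm [Finite Q] {n : ℕ} (hq : q = 2 ^ n) : ∀ x ∈ h.dd, ∀ y ∈ h.dd, ⁅x, y⁆ = 1 := by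
  by_cases hne : ∃ x, α x ≠ x
  · have P : Pair α ρ h.dd h.dd (dis α) (dis α) :=
      { i₁ := h.dd_rho
        i₂ := h.dd_rho
        m₁ := fun x hx => hx
        m₂ := fun x hx => hx
        a₁ := fun x hx y _ => h.dis_mul_of_center hx
        a₂ := fun x hx y _ => h.dis_mul_of_center hx
        r₁ := fun x _ => h.dis_rho x
        r₂ := fun x _ => h.dis_rho x
        s₁ := h.dd_surj hne
        s₂ := h.dd_surj hne
        k₁ := fun x _ hx1 y _ => by
          rw [commutatorElement_eq_one_iff_mul_comm]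
          exact (mem_center_iff.1 (h.fix_le_center (dis_eq_one.1 hx1)) y).symm
        k₂ := fun y _ hy1 x _ => by
          rw [commutatorElement_eq_one_iff_mul_comm]
          exact (mem_center_iff.1 (h.fix_le_center (dis_eq_one.1 hy1)) x)
        c := fun x hx y hy => h.comm_mem_fix hx hy }
    exact P.alternating h hq
  · push Not at hne
    intro x _ y _
    rw [commutatorElement_eq_one_iff_mul_comm]
    exact (mem_center_iff.1 (h.fix_le_center (hne y)) x)

theorem card_dd [Finite Q] (hne : ∃ x, α x ≠ x) : Nat.card h.dd = q ^ 2 := by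
  let f : h.dd →* Q :=
    { toFun := fun x => dis α x
      map_one' := by
        change dis α (1 : Q) = 1
        rw [dis, map_one, inv_one, mul_one]
      map_mul' := fun x y => h.dis_mul_of_center x.2 }
  have h1 := Subgroup.card_mul_index f.ker
  have h2 : f.range = fix α := by
    ext c
    constructor
    · rintro ⟨x, rfl⟩; exact x.2
    · intro hc
      obtain ⟨x, hx, rfl⟩ := h.dd_surj hne c hc
      exact ⟨⟨x, hx⟩, rfl⟩
  have h3 : f.ker.map h.dd.subtype = fix α := by
    ext c
    constructor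
    · rintro ⟨x, hx, rfl⟩
      exact dis_eq_one.1 (MonoidHom.mem_ker.1 hx)
    · intro hc
      exact ⟨⟨c, h.fix_le_dd hc⟩, MonoidHom.mem_ker.2 (dis_eq_one.2 hc), rfl⟩
  have h4 : Nat.card f.ker = q :=
    (Nat.card_congr (equivMapOfInjective _ _ (subtype_injective _)).toEquiv).trans
      (by rw [h3]; exact h.card_fix)
  rw [index_ker, h2, h.card_fix, h4] at h1
  rw [← h1, pow_two]

/-- invariant subgroups larger than `C` contain `dd` -/
theorem dd_le [Finite Q] {N : Subgroup Q} (hα : ∀ x ∈ N, α x ∈ N) (hρ : ∀ x ∈ N, ρ x ∈ N) (hC : fix α ≤ N)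
    (hne : ∃ x ∈ N, α x ≠ x) : h.dd ≤ N := by
  obtain ⟨x₁, hx₁, hx₁'⟩ := hne
  obtain ⟨hn, α', ρ', h', hα', hρ'⟩ := h.exists_quot ⟨x₁, hx₁'⟩
  have h1 : fix α' ≤ N.map (QuotientGroup.mk' (fix α)) := by
    apply h'.fix_le
    · rintro _ ⟨x, hx, rfl⟩
      exact ⟨α x, hα x hx, (hα' x).symm⟩
    · rintro _ ⟨x, hx, rfl⟩
      exact ⟨ρ x, hρ x hx, (hρ' x).symm⟩
    · intro hbot
      have h2 : (QuotientGroup.mk' (fix α)) x₁ ∈ N.map (QuotientGroup.mk' (fix α)) := ⟨x₁, hx₁, rfl⟩
      rw [hbot, mem_bot] at h2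
      exact hx₁' ((QuotientGroup.eq_one_iff x₁).1 h2)
  intro x hx
  have h2 : (QuotientGroup.mk x : Q ⧸ fix α) ∈ fix α' := by
    rw [mem_fix, hα', eq_comm, QuotientGroup.eq]
    exact hx
  obtain ⟨y, hy, hyx⟩ := h1 h2
  have h3 : y⁻¹ * x ∈ fix α := QuotientGroup.eq.1 hyx
  have h4 := N.mul_mem hy (hC h3)
  rwa [mul_inv_cancel_left] at h4

/-- **if `Q ≠ dd` then the involutions of `dd` lie in `C`** -/
theorem mem_fix_of_sq [Finite Q] {n : ℕ} (hq : q = 2 ^ n) (hne : ∃ x, x ∉ h.dd) {x : Q} (hx : x ∈ h.dd)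
    (hx2 : x * x = 1) : x ∈ fix α := by
  by_contra hxf
  obtain ⟨g, hg⟩ := hne
  have hne' : ∃ x, α x ≠ x := ⟨x, hxf⟩
  have hdc := h.dd_comm hq
  -- `dd` is elementary abelian
  have helem : ∀ y ∈ h.dd, y * y = 1 := by
    let W : Subgroup Q :=
      { carrier := {y | y ∈ h.dd ∧ y * y = 1}
        mul_mem' := by
          rintro a b ⟨ha, ha2⟩ ⟨hb, hb2⟩
          refine ⟨h.dd.mul_mem ha hb, ?_⟩
          have hab := commutatorElement_eq_one_iff_mul_comm.1 (hdc a ha b hb)
          calc a * b * (a * b) = a * (b * a) * b := by group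
            _ = a * (a * b) * b := by rw [hab]
            _ = (a * a) * (b * b) := by group
            _ = 1 := by rw [ha2, hb2, one_mul]
        one_mem' := ⟨h.dd.one_mem, one_mul 1⟩
        inv_mem' := by
          rintro a ⟨ha, ha2⟩
          refine ⟨h.dd.inv_mem ha, ?_⟩
          rw [← mul_inv_rev, ha2, inv_one] }
    have hW : h.dd ≤ W := by
      apply h.dd_le
      · rintro y ⟨hy, hy2⟩
        exact ⟨h.dd_alpha y hy, by rw [← map_mul, hy2, map_one]⟩
      · rintro y ⟨hy, hy2⟩
        exact ⟨h.dd_rho y hy, by rw [← map_mul, hy2, map_one]⟩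
      · intro y hy
        exact ⟨h.fix_le_dd hy, h.sq_one hy⟩
      · exact ⟨x, ⟨hx, hx2⟩, hxf⟩
    intro y hy
    exact (hW hy).2
  -- some element outside `dd` has its displacement in `dd`
  obtain ⟨hn, α', ρ', h', hα', hρ'⟩ := h.exists_quot hne'
  have hmem : ∀ y : Q, (QuotientGroup.mk y : Q ⧸ fix α) ∈ fix α' ↔ y ∈ h.dd := by
    intro y
    rw [mem_fix, hα', eq_comm, QuotientGroup.eq]
    rfl
  obtain ⟨y, hy, hy1⟩ := h'.exists_dis ⟨QuotientGroup.mk g, fun hcon => hg ((hmem g).1 hcon)⟩
  obtain ⟨y, rfl⟩ := QuotientGroup.mk_surjective y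
  have hdm : dis α' (QuotientGroup.mk y : Q ⧸ fix α) = QuotientGroup.mk (dis α y) := by
    rw [dis, hα']; rfl
  rw [hdm, hmem] at hy
  apply hy1
  rw [hdm, QuotientGroup.eq_one_iff]
  have h2 := helem _ hy
  rw [mem_fix, h.apply_dis]
  exact inv_eq_of_mul_eq_one_right h2

end Hyp

theorem card_quotient_mul [Finite Q] (N : Subgroup Q) : Nat.card Q = Nat.card (Q ⧸ N) * Nat.card N := by
  rw [mul_comm]
  exact (Subgroup.card_mul_index N).symm

/-- **the structure theorem** -/
theorem structure_thm (N : ℕ) : ∀ (Q : Type u) [Group Q] [Finite Q] (q n : ℕ) (α ρ : MulAut Q), Hyp q α ρ →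
    q = 2 ^ n → Nat.card Q ≤ N → (∃ x y : Q, ⁅x, y⁆ ≠ 1) →
    (∀ x y : Q, ⁅x, y⁆ ∈ fix α) ∧ (∀ x : Q, x * x ∈ fix α) ∧ Nat.card Q = q ^ 3 ∧
      (∀ x : Q, dis α x ∉ fix α → ∀ c ∈ fix α, ∃ g : Q, dis α g ∈ fix α ∧ ⁅g, x⁆ = c) ∧
      (∀ x : Q, dis α (dis α x) ∈ fix α) ∧
      (∀ x : Q, dis α x ∉ fix α → ∀ g : Q, dis α g ∈ fix α → ⁅x, g⁆ = 1 → g ∈ fix α) := by
  induction N with
  | zero =>
    intro Q _ _ q n α ρ h hq hN
    exact absurd (Nat.card_pos (α := Q)) (by omega)
  | succ N ih =>
    intro Q _ _ q n α ρ h hq hN hna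
    obtain ⟨a₀, b₀, hab₀⟩ := hna
    have hcen := h.fix_le_center
    have hddc := h.dd_comm hq
    have hnd : ∃ x, x ∉ h.dd := by
      by_contra hcon
      push Not at hcon
      exact hab₀ (hddc a₀ (hcon a₀) b₀ (hcon b₀))
    have hne : ∃ x, α x ≠ x := by
      obtain ⟨x, hx⟩ := hnd
      exact ⟨x, fun hcon => hx (h.fix_le_dd hcon)⟩
    obtain ⟨hn, α', ρ', h', hα', hρ'⟩ := h.exists_quot hne
    have hmem : ∀ y : Q, (QuotientGroup.mk y : Q ⧸ fix α) ∈ fix α' ↔ y ∈ h.dd := by
      intro y
      rw [mem_fix, hα', eq_comm, QuotientGroup.eq]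
      rfl
    have hmk1 : ∀ y : Q, (QuotientGroup.mk y : Q ⧸ fix α) = 1 ↔ y ∈ fix α := fun y => QuotientGroup.eq_one_iff y
    have hdm : ∀ y : Q, dis α' (QuotientGroup.mk y : Q ⧸ fix α) = QuotientGroup.mk (dis α y) := by
      intro y; rw [dis, hα']; rfl
    have hcomm : ∀ x y : Q, ⁅(QuotientGroup.mk x : Q ⧸ fix α), QuotientGroup.mk y⁆ = QuotientGroup.mk ⁅x, y⁆ :=
      fun x y => (map_commutatorElement (QuotientGroup.mk' (fix α)) x y).symm
    have hcq := card_quotient_mul (fix α)
    rw [h.card_fix] at hcq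
    have hq4 := h.four
    have hlt : Nat.card (Q ⧸ fix α) ≤ N := by
      have h1 : 0 < Nat.card (Q ⧸ fix α) := Nat.card_pos
      nlinarith
    -- the displacement in the quotient
    have hdd2 : ∀ x y : Q, dis α x ∈ h.dd → ∃ c ∈ fix α, dis α (x * y) = dis α x * dis α y * c := by
      intro x y hx
      -- `dd / C` is central
      have h1 : (QuotientGroup.mk (dis α x) : Q ⧸ fix α) ∈ center (Q ⧸ fix α) :=
        h'.fix_le_center ((hmem _).2 hx)
      have h2 := mem_center_iff.1 h1 (QuotientGroup.mk y⁻¹)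
      have h3 : (dis α x * dis α y)⁻¹ * dis α (x * y) ∈ fix α := by
        rw [← QuotientGroup.eq]
        have h4 : dis α (x * y) = y⁻¹ * dis α x * α y := by
          rw [dis, dis, map_mul, mul_inv_rev]; group
        rw [h4, dis]
        change (QuotientGroup.mk (dis α x) : Q ⧸ fix α) * (QuotientGroup.mk y⁻¹ * QuotientGroup.mk (α y)) =
          QuotientGroup.mk y⁻¹ * QuotientGroup.mk (dis α x) * QuotientGroup.mk (α y)
        rw [h2, mul_assoc]
      exact ⟨_, h3, by group⟩
    have hdisc : ∀ c ∈ fix α, dis α c = 1 := fun c hc => dis_eq_one.2 hc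
    have hcomc : ∀ c ∈ fix α, ∀ x, x * c = c * x := fun c hc x => mem_center_iff.1 (hcen hc) x
    -- a homomorphism property of `dis ∘ dis`
    have hdis2 : ∀ x y : Q, dis α x ∈ h.dd → dis α y ∈ h.dd →
        dis α (dis α (x * y)) = dis α (dis α x) * dis α (dis α y) := by
      intro x y hx hy
      obtain ⟨c, hc, hce⟩ := hdd2 x y hx
      rw [hce, h.dis_mul_of_center (h.dd.mul_mem hx hy), hdisc c hc, mul_one, h.dis_mul_of_center hx]
    have hdis2r : ∀ x : Q, dis α (dis α (ρ x)) = ρ (dis α (dis α x)) := by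
      intro x; rw [h.dis_rho, h.dis_rho]
    have hdis2s : ∀ M : Subgroup Q, (∀ x ∈ M, ρ x ∈ M) → (∃ x ∈ M, dis α x ∈ h.dd ∧ dis α x ∉ fix α) →
        ∀ c ∈ fix α, ∃ x ∈ M, dis α (dis α x) = c := by
      rintro M hM ⟨x, hx, hxd, hxf⟩ c hc
      by_cases hc1 : c = 1
      · refine ⟨1, M.one_mem, ?_⟩
        rw [hc1]
        have : dis α (1 : Q) = 1 := by rw [dis, map_one, inv_one, mul_one]
        rw [this, this]
      · obtain ⟨k, hk⟩ := h.trans _ c hxd hc (fun hcon => hxf (dis_eq_one.1 hcon)) hc1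
        refine ⟨(ρ ^ k) x, Hyp.pow_mem hM k x hx, ?_⟩
        rw [h.dis_pow, h.dis_pow, hk]
    by_cases hab : ∀ x y : Q ⧸ fix α, ⁅x, y⁆ = 1
    · -- Case A
      have hcf : ∀ x y : Q, ⁅x, y⁆ ∈ fix α := by
        intro x y
        rw [← hmk1, ← hcomm]
        exact hab _ _
      by_cases hinv : ∀ x : Q, x * x ∈ fix α → x ∈ h.dd
      · -- all involutions of `Q / C` lie in `dd / C`: impossible
        exfalso
        have hsqc : ∀ x : Q, x * x ∈ center Q := by
          intro x
          rw [mem_center_iff]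
          intro g
          have h1 : ⁅x * x, g⁆ = ⁅x, g⁆ * ⁅x, g⁆ := comm_mul_left' (hcen (hcf x g))
          rw [h.sq_one (hcf x g)] at h1
          exact (commutatorElement_eq_one_iff_mul_comm.1 h1).symm
        have hddZ : h.dd ≤ center Q := by
          apply h.dd_le (fun x hx => Hyp.mem_center_apply α hx) (fun x hx => Hyp.mem_center_apply ρ hx) hcen
          by_contra hcon
          push Not at hcon
          obtain ⟨x, hx⟩ := hnd
          exact hx (hinv x (hcon _ (hsqc x)))
        -- Higman's theorem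
        have htr : ∀ x : Q, x * x = 1 → x ∈ fix α := fun x hx =>
          h.mem_fix_of_sq hq hnd (hinv x (by rw [hx]; exact one_mem _)) hx
        have hK : ∀ a b : zpowers ρ, a * b = b * a := fun a b => by
          obtain ⟨a, ha⟩ := a
          obtain ⟨b, hb⟩ := b
          obtain ⟨i, rfl⟩ := mem_zpowers_iff.1 ha
          obtain ⟨j, rfl⟩ := mem_zpowers_iff.1 hb
          apply Subtype.ext
          change ρ ^ i * ρ ^ j = ρ ^ j * ρ ^ i
          rw [← zpow_add, ← zpow_add, add_comm]
        obtain ⟨m, hm, hm1⟩ := h.odd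
        have hmain := Cfsg.Agent.LieRecognition.HigmanCentral.abelian_of_invariant (P := Q) (K := zpowers ρ) h.two hK
          (fun k => by
            obtain ⟨l, hl⟩ := hm
            refine ⟨k ^ (l + 1), ?_⟩
            have hk : k ^ m = 1 := by
              obtain ⟨k, hk⟩ := k
              obtain ⟨i, rfl⟩ := mem_zpowers_iff.1 hk
              apply Subtype.ext
              change (ρ ^ i) ^ m = 1
              rw [← zpow_natCast, ← zpow_mul, mul_comm, zpow_mul, zpow_natCast, hm1, one_zpow]
            rw [← pow_add, show l + 1 + (l + 1) = m + 1 by omega, pow_succ, hk, one_mul])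
          (fun x y hx1 hx hy1 hy => by
            obtain ⟨k, hk⟩ := h.trans x y (htr x hx) (htr y hy) hx1 hy1
            exact ⟨⟨ρ ^ k, npow_mem_zpowers ρ k⟩, hk⟩)
          (fun x hx y => by
            have h1 : x * x ∈ fix α := htr _ (by rw [← hx]; simp only [pow_succ, pow_zero, one_mul, mul_assoc])
            exact (mem_center_iff.1 (hddZ (hinv x h1)) y).symm)
          (Nat.card (⊤ : Subgroup Q)) ⊤ rfl (fun _ _ _ => mem_top _)
        exact hab₀ (commutatorElement_eq_one_iff_mul_comm.2 (hmain a₀ (mem_top _) b₀ (mem_top _)))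
      · -- `Q / C` is elementary abelian
        push Not at hinv
        obtain ⟨x₁, hx₁, hx₁d⟩ := hinv
        -- squares modulo `C` form a subgroup
        have hsq : ∀ x : Q, x * x ∈ fix α := by
          have hW : ∀ y : Q ⧸ fix α, y ∈ h'.dd → y * y = 1 := by
            let W : Subgroup (Q ⧸ fix α) :=
              { carrier := {y | y * y = 1}
                mul_mem' := by
                  intro a b ha hb
                  have hab' := commutatorElement_eq_one_iff_mul_comm.1 (hab a b)
                  change a * b * (a * b) = 1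
                  calc a * b * (a * b) = a * (b * a) * b := by group
                    _ = a * (a * b) * b := by rw [hab']
                    _ = (a * a) * (b * b) := by group
                    _ = 1 := by rw [ha, hb, one_mul]
                one_mem' := one_mul 1
                inv_mem' := by
                  intro a ha
                  change a⁻¹ * a⁻¹ = 1
                  rw [← mul_inv_rev, ha, inv_one] }
            have hle : h'.dd ≤ W := by
              apply h'.dd_le
              · intro y hy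
                change α' y * α' y = 1
                rw [← map_mul, hy, map_one]
              · intro y hy
                change ρ' y * ρ' y = 1
                rw [← map_mul, hy, map_one]
              · intro y hy
                exact h'.sq_one hy
              · exact ⟨QuotientGroup.mk x₁, (hmk1 _).2 hx₁, fun hcon => hx₁d ((hmem x₁).1 hcon)⟩
            exact fun y hy => hle hy
          have hall : ∀ y : Q ⧸ fix α, y ∈ h'.dd := by
            by_contra hcon
            push Not at hcon
            -- `dd / C` is elementary abelian, hence `Q / C = dd`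
            obtain ⟨z, hz, hz1⟩ := h'.exists_dis ⟨QuotientGroup.mk x₁, fun hcon' => hx₁d ((hmem x₁).1 hcon')⟩
            exact hz1 (dis_eq_one.2 (h'.mem_fix_of_sq hq hcon hz (hW z hz)))
          intro x
          exact (hmk1 (x * x)).1 (hW (QuotientGroup.mk x) (hall _))
        have hallmem : ∀ x : Q, dis α x ∈ h.dd := by
          have hall : ∀ y : Q ⧸ fix α, y ∈ h'.dd := by
            by_contra hcon
            push Not at hcon
            obtain ⟨z, hz, hz1⟩ := h'.exists_dis ⟨QuotientGroup.mk x₁, fun hcon' => hx₁d ((hmem x₁).1 hcon')⟩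
            have hz2 : z * z = 1 := by
              obtain ⟨z, rfl⟩ := QuotientGroup.mk_surjective z
              exact (hmk1 (z * z)).2 (hsq z)
            exact hz1 (dis_eq_one.2 (h'.mem_fix_of_sq hq hcon hz hz2))
          intro x
          have h1 : dis α' (QuotientGroup.mk x : Q ⧸ fix α) ∈ fix α' := hall _
          rw [hdm, hmem] at h1
          exact h1
        have hcard : Nat.card Q = q ^ 3 := by
          have h1 : (h'.dd : Subgroup (Q ⧸ fix α)) = ⊤ := by
            rw [eq_top_iff]
            intro y _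
            obtain ⟨y, rfl⟩ := QuotientGroup.mk_surjective y
            rw [h'.mem_dd, hdm, hmem]
            exact hallmem y
          have h2 := h'.card_dd ⟨QuotientGroup.mk x₁, fun hcon => hx₁d ((hmem x₁).1 hcon)⟩
          rw [h1, card_top] at h2
          rw [hcq, h2]; ring
        refine ⟨hcf, hsq, hcard, ?_⟩
        -- nondegeneracy
        have hex : ∃ x ∈ (⊤ : Subgroup Q), dis α x ∈ h.dd ∧ dis α x ∉ fix α := by
          obtain ⟨x, hx⟩ := hnd
          exact ⟨x, mem_top _, hallmem x, hx⟩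
        have P : Pair α ρ ⊤ h.dd (fun x => dis α (dis α x)) (dis α) :=
          { i₁ := fun _ _ => mem_top _
            i₂ := h.dd_rho
            m₁ := fun x _ => hallmem x
            m₂ := fun x hx => hx
            a₁ := fun x _ y _ => hdis2 x y (hallmem x) (hallmem y)
            a₂ := fun x hx y _ => h.dis_mul_of_center hx
            r₁ := fun x _ => hdis2r x
            r₂ := fun x _ => h.dis_rho x
            s₁ := hdis2s ⊤ (fun _ _ => mem_top _) hex
            s₂ := h.dd_surj hne
            k₁ := fun x _ hx1 y hy => hddc x (dis_eq_one.1 hx1) y hy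
            k₂ := fun y _ hy1 x _ => by
              rw [commutatorElement_eq_one_iff_mul_comm]
              exact (mem_center_iff.1 (h.fix_le_center (dis_eq_one.1 hy1)) x)
            c := fun x _ y _ => hcf x y }
        rcases P.dichotomy h hq with hd | hd
        · exfalso
          have P' : Pair α ρ ⊤ ⊤ (fun x => dis α (dis α x)) (fun x => dis α (dis α x)) :=
            { i₁ := fun _ _ => mem_top _
              i₂ := fun _ _ => mem_top _
              m₁ := fun x _ => hallmem x
              m₂ := fun x _ => hallmem x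
              a₁ := fun x _ y _ => hdis2 x y (hallmem x) (hallmem y)
              a₂ := fun x _ y _ => hdis2 x y (hallmem x) (hallmem y)
              r₁ := fun x _ => hdis2r x
              r₂ := fun x _ => hdis2r x
              s₁ := hdis2s ⊤ (fun _ _ => mem_top _) hex
              s₂ := hdis2s ⊤ (fun _ _ => mem_top _) hex
              k₁ := fun x _ hx1 y _ => by
                have h1 := hd y (mem_top _) x (dis_eq_one.1 hx1)
                rw [commutatorElement_eq_one_iff_mul_comm] at h1 ⊢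
                exact h1.symm
              k₂ := fun y _ hy1 x _ => hd x (mem_top _) y (dis_eq_one.1 hy1)
              c := fun x _ y _ => hcf x y }
          exact hab₀ (P'.alternating h hq a₀ (mem_top _) b₀ (mem_top _))
        · refine ⟨?_, hallmem, fun x hx g hg hxg => ?_⟩
          swap
          · rcases hd x (mem_top _) g hg hxg with h3 | h3
            · exact absurd (dis_eq_one.1 h3) hx
            · exact dis_eq_one.1 h3
          intro x hx c hc
          -- the map `g ↦ [g, x]` from `dd` to `C`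
          let f : h.dd →* fix α :=
            { toFun := fun g => ⟨⁅(g : Q), x⁆, hcf _ _⟩
              map_one' := Subtype.ext (commutatorElement_one_left x)
              map_mul' := fun g g' => Subtype.ext (comm_mul_left' (hcen (hcf _ _))) }
          have hk : f.ker.map h.dd.subtype = fix α := by
            ext y
            constructor
            · rintro ⟨g, hg, rfl⟩
              have h1 : ⁅(g : Q), x⁆ = 1 := congrArg Subtype.val (MonoidHom.mem_ker.1 hg)
              have h2 : ⁅x, (g : Q)⁆ = 1 := by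
                rw [commutatorElement_eq_one_iff_mul_comm] at h1 ⊢; exact h1.symm
              rcases hd x (mem_top _) g g.2 h2 with h3 | h3
              · exact absurd (dis_eq_one.1 h3) hx
              · exact dis_eq_one.1 h3
            · intro hy
              refine ⟨⟨y, h.fix_le_dd hy⟩, MonoidHom.mem_ker.2 (Subtype.ext ?_), rfl⟩
              change ⁅y, x⁆ = 1
              rw [commutatorElement_eq_one_iff_mul_comm]
              exact (mem_center_iff.1 (hcen hy) x).symm
          have h4 : Nat.card f.ker = q :=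
            (Nat.card_congr (equivMapOfInjective _ _ (subtype_injective _)).toEquiv).trans
              (by rw [hk]; exact h.card_fix)
          have h5 := Subgroup.card_mul_index f.ker
          rw [index_ker, h4, h.card_dd hne, pow_two] at h5
          have h6 : Nat.card f.range = q := Nat.eq_of_mul_eq_mul_left (by omega) h5
          have h7 : f.range = ⊤ := by
            apply eq_top_of_card_eq
            rw [h6, h.card_fix]
          have h8 : (⟨c, hc⟩ : fix α) ∈ f.range := by rw [h7]; exact mem_top _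
          obtain ⟨g, hg⟩ := h8
          exact ⟨g, g.2, congrArg Subtype.val hg⟩
    · -- Case B: impossible
      exfalso
      push Not at hab
      obtain ⟨ic, isq, icard, inon, -, -⟩ := ih (Q ⧸ fix α) q n α' ρ' h' hq hlt hab
      have hcd : ∀ x y : Q, ⁅x, y⁆ ∈ h.dd := by
        intro x y
        rw [← hmem, ← hcomm]
        exact ic _ _
      have hsd : ∀ x : Q, x * x ∈ h.dd := by
        intro x
        exact (hmem (x * x)).1 (isq (QuotientGroup.mk x))
      have hnd' : ∃ y, y ∉ h'.dd := by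
        by_contra hcon
        push Not at hcon
        obtain ⟨x, y, hxy⟩ := hab
        exact hxy (h'.dd_comm hq x (hcon x) y (hcon y))
      have hne'' : ∃ y, α' y ≠ y := by
        obtain ⟨y, hy⟩ := hnd'
        exact ⟨y, fun hcon => hy (h'.fix_le_dd hcon)⟩
      let M : Subgroup Q := h'.dd.comap (QuotientGroup.mk' (fix α))
      have hM : ∀ x : Q, x ∈ M ↔ dis α x ∈ h.dd := by
        intro x
        change (QuotientGroup.mk x : Q ⧸ fix α) ∈ h'.dd ↔ _
        rw [h'.mem_dd, hdm, hmem]
      have hddM : h.dd ≤ M := by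
        intro x hx
        rw [hM]
        exact h.fix_le_dd hx
      have hMr : ∀ x ∈ M, ρ x ∈ M := by
        intro x hx
        rw [hM] at hx ⊢
        rw [h.dis_rho]; exact h.dd_rho _ hx
      -- an element of `M` outside `dd`
      obtain ⟨g₀, hg₀, hg₀'⟩ : ∃ g₀ ∈ M, g₀ ∉ h.dd := by
        obtain ⟨y, hy, hy1⟩ := h'.exists_dis hne''
        obtain ⟨y, rfl⟩ := QuotientGroup.mk_surjective y
        refine ⟨y, hy, fun hcon => hy1 ?_⟩
        rw [hdm, hmk1]
        exact hcon
      have hsq0 : g₀ * g₀ ∉ fix α := by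
        intro hcon
        apply hg₀'
        rw [← hmem]
        exact h'.mem_fix_of_sq hq hnd' hg₀ ((hmk1 _).2 hcon)
      -- squares of `M` cover `dd / C`
      have hcov : ∀ d ∈ h.dd, ∃ g ∈ M, d⁻¹ * (g * g) ∈ fix α := by
        intro d hd
        by_cases hdf : d ∈ fix α
        · exact ⟨1, M.one_mem, by rw [mul_one, mul_one]; exact (fix α).inv_mem hdf⟩
        · obtain ⟨k, hk⟩ := h'.trans (QuotientGroup.mk (g₀ * g₀)) (QuotientGroup.mk d) ((hmem _).2 (hsd g₀))
            ((hmem _).2 hd) (fun hcon => hsq0 ((hmk1 _).1 hcon)) (fun hcon => hdf ((hmk1 _).1 hcon))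
          refine ⟨(ρ ^ k) g₀, Hyp.pow_mem hMr k g₀ hg₀, ?_⟩
          rw [← QuotientGroup.eq, ← hk]
          have h1 : ∀ (k : ℕ) (x : Q), (ρ' ^ k) (QuotientGroup.mk x : Q ⧸ fix α) = QuotientGroup.mk ((ρ ^ k) x) := by
            intro k
            induction k with
            | zero => intro x; rfl
            | succ k ih =>
              intro x
              rw [pow_succ, pow_succ, MulAut.mul_apply, MulAut.mul_apply, hρ', ih]
          rw [h1, map_mul]
      have hMc : ∀ x ∈ M, ∀ y ∈ M, ⁅x, y⁆ ∈ fix α := by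
        intro x hx y hy
        rw [← hmk1, ← hcomm]
        exact h'.dd_comm hq _ hx _ hy
      -- `dd` is central in `M`
      have hdM : ∀ d ∈ h.dd, ∀ y ∈ M, ⁅d, y⁆ = 1 := by
        intro d hd y hy
        obtain ⟨g, hg, hgd⟩ := hcov d hd
        have h1 : ⁅g * g, y⁆ = 1 := by
          rw [comm_mul_left' (hcen (hMc g hg y hy)), h.sq_one (hMc g hg y hy)]
        have h2 : ⁅d⁻¹ * (g * g), y⁆ = 1 := by
          rw [commutatorElement_eq_one_iff_mul_comm]
          exact (mem_center_iff.1 (hcen hgd) y).symm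
        have h3 : ⁅d * (d⁻¹ * (g * g)), y⁆ = ⁅d, y⁆ * ⁅d⁻¹ * (g * g), y⁆ :=
          comm_mul_left' (by rw [h2]; exact one_mem _)
        rw [mul_inv_cancel_left, h1, h2, mul_one] at h3
        exact h3.symm
      -- `M` is abelian
      have hMdis : ∀ x ∈ M, ∀ y ∈ M, dis α (dis α (x * y)) = dis α (dis α x) * dis α (dis α y) :=
        fun x hx y hy => hdis2 x y ((hM x).1 hx) ((hM y).1 hy)
      have PM : Pair α ρ M M (fun x => dis α (dis α x)) (fun x => dis α (dis α x)) :=
        { i₁ := hMr
          i₂ := hMr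
          m₁ := fun x hx => (hM x).1 hx
          m₂ := fun x hx => (hM x).1 hx
          a₁ := hMdis
          a₂ := hMdis
          r₁ := fun x _ => hdis2r x
          r₂ := fun x _ => hdis2r x
          s₁ := hdis2s M hMr ⟨g₀, hg₀, (hM g₀).1 hg₀, hg₀'⟩
          s₂ := hdis2s M hMr ⟨g₀, hg₀, (hM g₀).1 hg₀, hg₀'⟩
          k₁ := fun x _ hx1 y hy => hdM x (dis_eq_one.1 hx1) y hy
          k₂ := fun y _ hy1 x hx => by
            have h1 := hdM y (dis_eq_one.1 hy1) x hx
            rw [commutatorElement_eq_one_iff_mul_comm] at h1 ⊢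
            exact h1.symm
          c := hMc }
      have hMab : ∀ x ∈ M, ∀ y ∈ M, x * y = y * x := fun x hx y hy =>
        commutatorElement_eq_one_iff_mul_comm.1 (PM.alternating h hq x hx y hy)
      -- the key relation
      have hkey : ∀ x, x ∉ M → ∀ g ∈ M, ⁅x, g⁆ * (g * g) ∈ fix α := by
        intro x hx g hg
        have hxd : dis α' (QuotientGroup.mk x : Q ⧸ fix α) ∉ fix α' := by
          intro hcon
          exact hx hcon
        -- `f y = [x, y]`
        have hfm : ∀ y ∈ M, ∀ z ∈ M, ⁅x, y * z⁆ = ⁅x, y⁆ * ⁅x, z⁆ := by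
          intro y hy z hz
          have e1 : ⁅x, y * z⁆ = ⁅x, y⁆ * (y * ⁅x, z⁆ * y⁻¹) := by simp only [commutatorElement_def]; group
          rw [e1, hMab y hy _ (hddM (hcd x z)), mul_inv_cancel_right]
        have hff : ∀ y ∈ M, ⁅x, ⁅x, y⁆⁆ * (⁅x, y⁆ * ⁅x, y⁆) = 1 := by
          intro y hy
          have e1 : x * y * x⁻¹ = ⁅x, y⁆ * y := by rw [commutatorElement_def]; group
          have e2 : x * ⁅x, y⁆ * x⁻¹ = ⁅x, ⁅x, y⁆⁆ * ⁅x, y⁆ := by rw [commutatorElement_def x ⁅x, y⁆]; group
          have e3 : x * x * y = y * (x * x) := hMab _ (hddM (hsd x)) _ hy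
          have e4 : x * (x * y * x⁻¹) * x⁻¹ = y := by
            calc x * (x * y * x⁻¹) * x⁻¹ = (x * x * y) * x⁻¹ * x⁻¹ := by group
              _ = y := by rw [e3]; group
          rw [e1] at e4
          have e5 : x * (⁅x, y⁆ * y) * x⁻¹ = (x * ⁅x, y⁆ * x⁻¹) * (x * y * x⁻¹) := by group
          rw [e5, e2, e1] at e4
          have e6 : ⁅x, ⁅x, y⁆⁆ * ⁅x, y⁆ * (⁅x, y⁆ * y) = ⁅x, ⁅x, y⁆⁆ * (⁅x, y⁆ * ⁅x, y⁆) * y := by group
          rw [e6] at e4
          exact mul_eq_right.1 e4
        obtain ⟨y, hy, hyc⟩ := inon (QuotientGroup.mk x) hxd (QuotientGroup.mk (g * g)⁻¹)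
          ((hmem _).2 (h.dd.inv_mem (hsd g)))
        obtain ⟨y, rfl⟩ := QuotientGroup.mk_surjective y
        have hyM : y ∈ M := hy
        -- `[y, x] ≡ g⁻²`, so `[x, y] ≡ g²`
        have hyc' : ⁅x, y⁆ * (g * g)⁻¹ ∈ fix α := by
          rw [← hmk1]
          have e1 : ⁅x, y⁆ = ⁅y, x⁆⁻¹ := (commutatorElement_inv y x).symm
          rw [e1]
          change (QuotientGroup.mk ⁅y, x⁆ : Q ⧸ fix α)⁻¹ * QuotientGroup.mk (g * g)⁻¹ = 1
          rw [← hcomm, hyc, inv_mul_cancel]
        obtain ⟨c, hc, hce⟩ : ∃ c ∈ fix α, ⁅x, y⁆ = c * (g * g) :=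
          ⟨_, hyc', by group⟩
        have h1 := hff y hyM
        have hgg : g * g ∈ M := M.mul_mem hg hg
        have hcM : c ∈ M := hddM (h.fix_le_dd hc)
        have hxc : ⁅x, c⁆ = 1 := by
          rw [commutatorElement_eq_one_iff_mul_comm]
          exact hcomc c hc x
        have h2 : ⁅x, ⁅x, y⁆⁆ = ⁅x, g⁆ * ⁅x, g⁆ := by
          rw [hce, hfm c hcM _ hgg, hxc, one_mul, hfm g hg g hg]
        have h3 : ⁅x, y⁆ * ⁅x, y⁆ = g * g * (g * g) := by
          rw [hce]
          have e := hcomc c hc (g * g)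
          calc c * (g * g) * (c * (g * g)) = c * ((g * g) * c) * (g * g) := by group
            _ = c * (c * (g * g)) * (g * g) := by rw [e]
            _ = (c * c) * ((g * g) * (g * g)) := by group
            _ = g * g * (g * g) := by rw [h.sq_one hc, one_mul]
        rw [h2, h3] at h1
        have h4 : ⁅x, g⁆ * (g * g) ∈ h.dd := h.dd.mul_mem (hcd x g) (hsd g)
        refine h.mem_fix_of_sq hq hnd h4 ?_
        have e := hMab _ (hddM (hcd x g)) _ hgg
        calc ⁅x, g⁆ * (g * g) * (⁅x, g⁆ * (g * g)) = ⁅x, g⁆ * ((g * g) * ⁅x, g⁆) * (g * g) := by group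
          _ = ⁅x, g⁆ * (⁅x, g⁆ * (g * g)) * (g * g) := by rw [e]
          _ = ⁅x, g⁆ * ⁅x, g⁆ * (g * g * (g * g)) := by group
          _ = 1 := h1
      -- two elements outside `M` with product outside `M`
      obtain ⟨x, x', hx, hx', hxx⟩ : ∃ x x' : Q, x ∉ M ∧ x' ∉ M ∧ x * x' ∉ M := by
        by_contra hcon
        push Not at hcon
        obtain ⟨y, hy⟩ := hnd'
        obtain ⟨x, rfl⟩ := QuotientGroup.mk_surjective y
        have hx : x ∉ M := hy
        have hidx : M.index ≤ 2 := by
          rw [Subgroup.index]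
          have hs : ∀ z : Q ⧸ M, z = QuotientGroup.mk 1 ∨ z = QuotientGroup.mk x⁻¹ := by
            intro z
            obtain ⟨z, rfl⟩ := QuotientGroup.mk_surjective z
            by_cases hz : z ∈ M
            · left
              rw [eq_comm, QuotientGroup.eq, inv_one, one_mul]
              exact hz
            · right
              rw [eq_comm, QuotientGroup.eq, inv_inv]
              exact hcon x z hx hz
          have hs' : (Set.univ : Set (Q ⧸ M)) ⊆ {QuotientGroup.mk 1, QuotientGroup.mk x⁻¹} := by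
            intro z _
            exact hs z
          rw [← Set.ncard_univ]
          exact (Set.ncard_le_ncard hs' (Set.toFinite _)).trans
            ((Set.ncard_insert_le _ _).trans (by rw [Set.ncard_singleton]))
        have h1 : M.index = h'.dd.index := by
          have := Subgroup.index_comap_of_surjective h'.dd (QuotientGroup.mk'_surjective (fix α))
          exact this
        have h2 := Subgroup.card_mul_index h'.dd
        rw [h'.card_dd hne'', icard, show q ^ 3 = q ^ 2 * q by ring] at h2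
        have h3 : h'.dd.index = q := Nat.eq_of_mul_eq_mul_left (by positivity) h2
        omega
      have hfin : ∀ g ∈ M, g * g ∈ fix α := by
        intro g hg
        have k1 := hkey _ hxx g hg
        have k2 := hkey _ hx g hg
        have k3 := hkey _ hx' g hg
        -- modulo `C`
        have e1 : ⁅x * x', g⁆ = x * ⁅x', g⁆ * x⁻¹ * ⁅x, g⁆ := by simp only [commutatorElement_def]; group
        have hcentr : ∀ d ∈ h.dd, ∀ z : Q, (QuotientGroup.mk z : Q ⧸ fix α) * QuotientGroup.mk d =
            QuotientGroup.mk d * QuotientGroup.mk z := fun d hd z =>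
          mem_center_iff.1 (h'.fix_le_center ((hmem d).2 hd)) _
        rw [← hmk1] at k1 k2 k3 ⊢
        have e2 : (QuotientGroup.mk (⁅x * x', g⁆ * (g * g)) : Q ⧸ fix α) =
            QuotientGroup.mk ⁅x', g⁆ * (QuotientGroup.mk (⁅x, g⁆ * (g * g))) := by
          rw [e1]
          change (QuotientGroup.mk x : Q ⧸ fix α) * QuotientGroup.mk ⁅x', g⁆ * (QuotientGroup.mk x)⁻¹ *
            QuotientGroup.mk ⁅x, g⁆ * QuotientGroup.mk (g * g) = _
          rw [hcentr _ (hcd x' g) x, mul_inv_cancel_right, mul_assoc]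
          rfl
        rw [e2, k2, mul_one] at k1
        have e3 : (QuotientGroup.mk (⁅x', g⁆ * (g * g)) : Q ⧸ fix α) =
            QuotientGroup.mk ⁅x', g⁆ * QuotientGroup.mk (g * g) := rfl
        rw [e3, k1, one_mul] at k3
        exact k3
      exact hsq0 (hfin g₀ hg₀)

end Cfsg.Agent.H300.Singer
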